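import Cfsg.Agent.H226.Tall.Defs
import Cfsg.Agent.Lib.Cores

/-!
# S2927: rank two in characteristic 2, the engine (helper96)

* `RTwo S P₁ P₂` : `P₁`, `P₂` are the two maximal parabolics over `S`;
* `RTwo.perm` : automorphisms normalising `S` permute `{P₁, P₂}`;
* `RTwo.fixed` : `Loc` forces `P` to fix `P₁` and `P₂`;
* `kill_of_cent` : no `Fib` if `S₁` contains a nontrivial subgroup centralised by all `P₁`-conjugates of `S₁`;
* `kill_of_inf` : no `Fib` if `O₂(P₁) ∩ O₂(P₂)` is centralised by `S₁`, `P₁ ⊔ P₂ = ⊤` and `Rig K`.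
-/

set_option autoImplicit false

namespace Cfsg.Agent.H96.Tall

open Subgroup Cfsg Cfsg.Agent.H226.Tall

universe u

section O2

variable {K : Type*} [Group K]

theorem O2_le (L : Subgroup K) : O2 L ≤ L := map_subtype_le _

theorem O2_isPGroup (L : Subgroup K) : IsPGroup 2 ↥(O2 L) := (Lib.Cores.pCore_isPGroup (G := ↥L) 2).map _

theorem O2_conj_mem {L : Subgroup K} {g x : K} (hg : g ∈ L) (hx : x ∈ O2 L) : g * x * g⁻¹ ∈ O2 L := by
  obtain ⟨y, hy, rfl⟩ := hx
  exact ⟨⟨g, hg⟩ * y * ⟨g, hg⟩⁻¹, (Lib.Cores.pCore_normal 2).conj_mem y hy ⟨g, hg⟩, rfl⟩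

theorem le_O2 {N L : Subgroup K} (hNL : N ≤ L) (hn : ∀ g ∈ L, ∀ n ∈ N, g * n * g⁻¹ ∈ N) (hp : IsPGroup 2 ↥N) :
    N ≤ O2 L := by
  have h1 : (N.subgroupOf L).Normal := by
    refine ⟨fun n h g => ?_⟩
    rw [mem_subgroupOf] at h ⊢
    exact hn g g.2 n h
  have h2 : IsPGroup 2 ↥(N.subgroupOf L) := hp.comap_of_injective L.subtype L.subtype_injective
  intro x hx
  exact ⟨⟨x, hNL hx⟩, Lib.Cores.le_pCore h1 h2 (mem_subgroupOf.2 hx), rfl⟩

theorem O2_map_le {K' : Type*} [Group K'] (e : K ≃* K') (L : Subgroup K) :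
    (O2 L).map e.toMonoidHom ≤ O2 (L.map e.toMonoidHom) := by
  refine le_O2 (map_mono (O2_le L)) ?_ ((O2_isPGroup L).map _)
  rintro _ ⟨g, hg, rfl⟩ _ ⟨n, hn, rfl⟩
  exact ⟨g * n * g⁻¹, O2_conj_mem hg hn, by simp⟩

theorem map_symm_map {K' : Type*} [Group K'] (e : K ≃* K') (L : Subgroup K) :
    (L.map e.toMonoidHom).map e.symm.toMonoidHom = L := by
  rw [map_map]
  convert L.map_id
  ext x
  simp

theorem map_map_symm {K' : Type*} [Group K'] (e : K ≃* K') (L : Subgroup K') :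
    (L.map e.symm.toMonoidHom).map e.toMonoidHom = L := map_symm_map e.symm L

theorem map_le_map_iff' {K' : Type*} [Group K'] (e : K ≃* K') (L M : Subgroup K) :
    L.map e.toMonoidHom ≤ M.map e.toMonoidHom ↔ L ≤ M := by
  constructor
  · intro h
    have h1 := map_mono (f := e.symm.toMonoidHom) h
    rwa [map_symm_map, map_symm_map] at h1
  · exact fun h => map_mono h

theorem le_map_iff {K' : Type*} [Group K'] (e : K ≃* K') (L : Subgroup K) (M : Subgroup K') :
    M ≤ L.map e.toMonoidHom ↔ M.map e.symm.toMonoidHom ≤ L := by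
  conv_lhs => rw [← map_map_symm e M]
  exact map_le_map_iff' e _ _

theorem O2_map (e' : Type*) [Group e'] (e : K ≃* e') (L : Subgroup K) :
    O2 (L.map e.toMonoidHom) = (O2 L).map e.toMonoidHom := by
  refine le_antisymm ?_ (O2_map_le e L)
  rw [le_map_iff]
  have h1 := O2_map_le e.symm (L.map e.toMonoidHom)
  rwa [map_symm_map] at h1

theorem O2_map_ne {K' : Type*} [Group K'] (e : K ≃* K') {L : Subgroup K} (h : O2 L ≠ ⊥) :
    O2 (L.map e.toMonoidHom) ≠ ⊥ := by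
  rw [O2_map]
  intro h1
  exact h ((Subgroup.map_eq_bot_iff_of_injective _ e.injective).1 h1)

end O2

/-- **The two maximal parabolics over `S`.** -/
structure RTwo {K : Type*} [Group K] (S P₁ P₂ : Subgroup K) : Prop where
  le1 : S ≤ P₁
  le2 : S ≤ P₂
  inf : P₁ ⊓ P₂ ≤ normalizer (S : Set K)
  ovr : ∀ M : Subgroup K, S ≤ M → O2 M ≠ ⊥ → M ≤ P₁ ∨ M ≤ P₂
  o1 : O2 P₁ ≠ ⊥
  o2 : O2 P₂ ≠ ⊥
  n12 : ¬ P₁ ≤ P₂
  n21 : ¬ P₂ ≤ P₁

theorem normalizer_map {K K' : Type*} [Group K] [Group K'] (e : K ≃* K') (S : Subgroup K) :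
    (normalizer (S : Set K)).map e.toMonoidHom ≤ normalizer ((S.map e.toMonoidHom : Subgroup K') : Set K') := by
  rintro _ ⟨g, hg, rfl⟩
  rw [mem_normalizer_iff]
  intro x
  have hg' := mem_normalizer_iff.1 hg
  constructor
  · rintro ⟨s, hs, rfl⟩
    exact ⟨g * s * g⁻¹, (hg' s).1 hs, by simp⟩
  · rintro ⟨s, hs, h⟩
    refine ⟨g⁻¹ * s * g, ?_, ?_⟩
    · apply (hg' _).2
      have : g * (g⁻¹ * s * g) * g⁻¹ = s := by group
      rwa [this]
    · have h1 : e s = e g * x * (e g)⁻¹ := h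
      show e (g⁻¹ * s * g) = x
      rw [map_mul, map_mul, map_inv, h1]
      group

theorem RTwo.map {K K' : Type*} [Group K] [Group K'] {S P₁ P₂ : Subgroup K} (h : RTwo S P₁ P₂) (e : K ≃* K') :
    RTwo (S.map e.toMonoidHom) (P₁.map e.toMonoidHom) (P₂.map e.toMonoidHom) where
  le1 := map_mono h.le1
  le2 := map_mono h.le2
  inf := by
    rw [← Subgroup.map_inf _ _ _ e.injective]
    exact (map_mono h.inf).trans (normalizer_map e S)
  ovr := by
    intro M hM hO
    have h1 : S ≤ M.map e.symm.toMonoidHom := by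
      rw [le_map_iff e.symm]
      exact hM
    rcases h.ovr _ h1 (O2_map_ne e.symm hO) with h2 | h2
    · left; rw [le_map_iff]; exact h2
    · right; rw [le_map_iff]; exact h2
  o1 := O2_map_ne e h.o1
  o2 := O2_map_ne e h.o2
  n12 := fun h1 => h.n12 ((map_le_map_iff' e _ _).1 h1)
  n21 := fun h1 => h.n21 ((map_le_map_iff' e _ _).1 h1)

section Engine

variable {K : Type u} [Group K]

theorem RTwo.ne {S P₁ P₂ : Subgroup K} (h : RTwo S P₁ P₂) : P₁ ≠ P₂ := fun h1 => h.n12 h1.le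

theorem RTwo.norm_le {S P₁ P₂ : Subgroup K} (h : RTwo S P₁ P₂) : normalizer (O2 P₁ : Set K) ≤ P₁ := by
  have h0 : P₁ ≤ normalizer (O2 P₁ : Set K) := by
    intro g hg
    rw [mem_normalizer_iff]
    intro x
    constructor
    · exact fun hx => O2_conj_mem hg hx
    · intro hx
      have h1 := O2_conj_mem (inv_mem hg) hx
      have h2 : g⁻¹ * (g * x * g⁻¹) * g⁻¹⁻¹ = x := by group
      rwa [h2] at h1
  have h1 : O2 P₁ ≤ O2 (normalizer (O2 P₁ : Set K)) := by
    refine le_O2 le_normalizer ?_ (O2_isPGroup _)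
    intro g hg n hn
    exact (mem_normalizer_iff.1 hg n).1 hn
  have h2 : O2 (normalizer (O2 P₁ : Set K)) ≠ ⊥ := by
    intro h3
    rw [h3, le_bot_iff] at h1
    exact h.o1 h1
  rcases h.ovr _ (h.le1.trans h0) h2 with h3 | h3
  · exact h3
  · exact (h.n12 (h0.trans h3)).elim

theorem RTwo.symm {S P₁ P₂ : Subgroup K} (h : RTwo S P₁ P₂) : RTwo S P₂ P₁ where
  le1 := h.le2
  le2 := h.le1
  inf := by rw [inf_comm]; exact h.inf
  ovr := fun M h1 h2 => (h.ovr M h1 h2).symm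
  o1 := h.o2
  o2 := h.o1
  n12 := h.n21
  n21 := h.n12

theorem map_eq_of_le [Finite K] {L M : Subgroup K} (α : MulAut K) (h : L.map α.toMonoidHom ≤ L) :
    L.map α.toMonoidHom = L := by
  refine Subgroup.eq_of_le_of_card_ge h ?_
  rw [Subgroup.card_map_of_injective (f := α.toMonoidHom) α.injective]

theorem map_eq_self [Finite K] {L : Subgroup K} (α : MulAut K) (h : ∀ s ∈ L, α s ∈ L) :
    L.map α.toMonoidHom = L := by
  apply map_eq_of_le (M := L)
  rintro _ ⟨s, hs, rfl⟩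
  exact h s hs

/-- **Automorphisms normalising `S` permute the two parabolics.** -/
theorem RTwo.perm [Finite K] {S P₁ P₂ : Subgroup K} (h : RTwo S P₁ P₂) (α : MulAut K) (hα : ∀ s ∈ S, α s ∈ S) :
    (P₁.map α.toMonoidHom = P₁ ∧ P₂.map α.toMonoidHom = P₂) ∨
      (P₁.map α.toMonoidHom = P₂ ∧ P₂.map α.toMonoidHom = P₁) := by
  have hS := map_eq_self α hα
  have hS' : S.map α.symm.toMonoidHom = S := by
    conv_lhs => rw [← hS]
    exact map_symm_map α S
  -- images and preimages are again over `S`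
  have key : ∀ {Q₁ Q₂ : Subgroup K}, RTwo S Q₁ Q₂ → Q₁.map α.toMonoidHom = Q₁ ∨ Q₁.map α.toMonoidHom = Q₂ := by
    intro Q₁ Q₂ hQ
    have h1 : S ≤ Q₁.map α.toMonoidHom := by
      rw [← hS]
      exact map_mono hQ.le1
    rcases hQ.ovr _ h1 (O2_map_ne α hQ.o1) with h2 | h2
    · exact Or.inl (map_eq_of_le (M := S) α h2)
    · right
      refine le_antisymm h2 ?_
      have h3 : S ≤ Q₂.map α.symm.toMonoidHom := by
        rw [← hS']
        exact map_mono hQ.le2
      have h4 : Q₁ ≤ Q₂.map α.symm.toMonoidHom := by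
        rw [le_map_iff α.symm]
        exact h2
      rcases hQ.ovr _ h3 (O2_map_ne α.symm hQ.o2) with h5 | h5
      · have h6 := map_mono (f := α.toMonoidHom) h5
        rwa [map_map_symm] at h6
      · exact (hQ.n12 (h4.trans h5)).elim
  have hinj : Function.Injective (Subgroup.map α.toMonoidHom) := Subgroup.map_injective α.injective
  rcases key h with h1 | h1 <;> rcases key h.symm with h2 | h2
  · exact Or.inl ⟨h1, h2⟩
  · exact (h.ne (hinj (h1.trans h2.symm))).elim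
  · exact (h.ne (hinj (h1.trans h2.symm))).elim
  · exact Or.inr ⟨h1, h2⟩

/-- **`Loc` excludes the interchange of the two parabolics.** -/
theorem RTwo.fixed [Finite K] {S₁ : Sylow 2 K} {P V : Subgroup (MulAut K)} (hL : Loc S₁ P V) {P₁ P₂ : Subgroup K}
    (h : RTwo (S₁ : Subgroup K) P₁ P₂) {α : MulAut K} (hα : α ∈ P) :
    P₁.map α.toMonoidHom = P₁ ∧ P₂.map α.toMonoidHom = P₂ := by
  rcases h.perm α (hL.P_norm α hα) with h1 | ⟨h1, h2⟩
  · exact h1
  exfalso
  obtain ⟨R, hR, hRS, hRP, hRn⟩ := hL.loc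
  apply hRn
  set M : Subgroup K := normalizer (R : Set K) with hM
  have hRα : R.map α.toMonoidHom = R := map_eq_self α (hRP α hα)
  have hSM : (S₁ : Subgroup K) ≤ M := by
    intro s hs
    have hc := hRP _ (hL.conj_mem s hs)
    have hc' := hRP _ (hL.conj_mem s⁻¹ (inv_mem hs))
    rw [hM, mem_normalizer_iff]
    intro x
    constructor
    · intro hx
      exact hc x hx
    · intro hx
      have h3 := hc' _ hx
      rw [MulAut.conj_apply] at h3
      have h4 : s⁻¹ * (s * x * s⁻¹) * s⁻¹⁻¹ = x := by group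
      rwa [h4] at h3
  have hO : O2 M ≠ ⊥ := by
    intro h3
    have h4 : R ≤ O2 M := by
      refine le_O2 le_normalizer ?_ (S₁.isPGroup'.to_le hRS)
      intro g hg n hn
      exact (mem_normalizer_iff.1 hg n).1 hn
    rw [h3, le_bot_iff] at h4
    exact hR h4
  have hMα : M ≤ M.map α.toMonoidHom := by
    have h3 := normalizer_map α.symm R
    have h4 : R.map α.symm.toMonoidHom = R := by
      conv_lhs => rw [← hRα]
      exact map_symm_map α R
    rw [h4] at h3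
    rw [le_map_iff]
    exact h3
  rcases h.ovr M hSM hO with h3 | h3
  · exact (le_inf h3 ((hMα.trans (map_mono h3)).trans h1.le)).trans h.inf
  · exact (le_inf ((hMα.trans (map_mono h3)).trans h2.le) h3).trans h.inf

/-- the subgroup generated by the conjugates of `S` under `P₁` -/
def Cl (S P₁ : Subgroup K) : Subgroup K := closure {x | ∃ g ∈ P₁, ∃ s ∈ S, x = g * s * g⁻¹}

theorem le_Cl {S P₁ : Subgroup K} : S ≤ Cl S P₁ := by
  intro s hs
  exact subset_closure ⟨1, one_mem _, s, hs, by group⟩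

theorem Cl_conj {S P₁ : Subgroup K} {g x : K} (hg : g ∈ P₁) (hx : x ∈ Cl S P₁) : g * x * g⁻¹ ∈ Cl S P₁ := by
  have h1 : Cl S P₁ ≤ (Cl S P₁).comap (MulAut.conj g).toMonoidHom := by
    refine (closure_le _).2 ?_
    rintro _ ⟨a, ha, s, hs, rfl⟩
    show g * (a * s * a⁻¹) * g⁻¹ ∈ Cl S P₁
    exact subset_closure ⟨g * a, mul_mem hg ha, s, hs, by group⟩
  exact h1 hx

/-- **The kill for `PSp_4(2^k)`.** -/
theorem kill_of_cent [Finite K] {S₁ : Sylow 2 K} {P V : Subgroup (MulAut K)} (hF : Fib S₁ P V) {P₁ P₂ : Subgroup K}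
    (h : RTwo (S₁ : Subgroup K) P₁ P₂) {t : K} (ht1 : t ≠ 1) (htS : t ∈ (S₁ : Subgroup K))
    (htc : ∀ g ∈ P₁, ∀ s ∈ (S₁ : Subgroup K), Commute t (g * s * g⁻¹))
    (hn : ¬ P₁ ≤ normalizer ((S₁ : Subgroup K) : Set K)) : False := by
  classical
  have hfix : ∀ α ∈ P, P₁.map α.toMonoidHom = P₁ := fun α hα => (h.fixed hF.toLoc hα).1
  set L : Subgroup K := Cl (S₁ : Subgroup K) P₁ with hL
  have hLα : ∀ α ∈ P, ∀ x ∈ L, α x ∈ L := by
    intro α hα
    have h1 : L ≤ L.comap α.toMonoidHom := by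
      refine (closure_le _).2 ?_
      rintro _ ⟨a, ha, s, hs, rfl⟩
      refine subset_closure ⟨α a, ?_, α s, hF.P_norm α hα s hs, by simp⟩
      rw [← hfix α hα]
      exact ⟨a, ha, rfl⟩
    exact fun x hx => h1 hx
  have hLα' : ∀ α ∈ P, ∀ x ∈ L, α.symm x ∈ L := fun α hα => hLα α⁻¹ (inv_mem hα)
  -- the elementary abelian group `Z`
  have htL : ∀ x ∈ L, t * x = x * t := by
    have h1 : L ≤ centralizer ({t} : Set K) := by
      refine (closure_le _).2 ?_
      rintro _ ⟨a, ha, s, hs, rfl⟩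
      exact mem_centralizer_singleton_iff.2 (htc a ha s hs).eq.symm
    intro x hx
    exact (mem_centralizer_singleton_iff.1 (h1 hx)).symm
  let Z : Subgroup K :=
    { carrier := {a | a ∈ (S₁ : Subgroup K) ∧ (∀ x ∈ L, a * x = x * a) ∧ a * a = 1}
      one_mem' := ⟨one_mem _, fun x _ => by group, by group⟩
      mul_mem' := by
        rintro a b ⟨ha1, ha2, ha3⟩ ⟨hb1, hb2, hb3⟩
        refine ⟨mul_mem ha1 hb1, fun x hx => ?_, ?_⟩
        · rw [mul_assoc, hb2 x hx, ← mul_assoc, ha2 x hx, mul_assoc]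
        · have h1 := ha2 b (le_Cl hb1)
          calc a * b * (a * b) = a * (b * a) * b := by group
            _ = a * (a * b) * b := by rw [h1]
            _ = (a * a) * (b * b) := by group
            _ = 1 := by rw [ha3, hb3, mul_one]
      inv_mem' := by
        rintro a ⟨ha1, ha2, ha3⟩
        have h1 : a⁻¹ = a := inv_eq_of_mul_eq_one_left ha3
        rw [h1]
        exact ⟨ha1, ha2, ha3⟩ }
  have hZmem : ∀ a, a ∈ Z ↔ a ∈ (S₁ : Subgroup K) ∧ (∀ x ∈ L, a * x = x * a) ∧ a * a = 1 := fun a => Iff.rfl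
  have hZα : ∀ α ∈ P, ∀ a ∈ Z, α a ∈ Z := by
    intro α hα a ha
    rw [hZmem] at ha ⊢
    refine ⟨hF.P_norm α hα a ha.1, fun x hx => ?_, ?_⟩
    · have h1 := ha.2.1 _ (hLα' α hα x hx)
      have h2 := congrArg α h1
      rwa [map_mul, map_mul, MulEquiv.apply_symm_apply] at h2
    · rw [← map_mul, ha.2.2, map_one]
  -- an involution of `Z`
  have hZne : ∃ a : Z, a ≠ 1 := by
    obtain ⟨k, hk⟩ := S₁.isPGroup' ⟨t, htS⟩
    have hk' : t ^ 2 ^ k = 1 := congrArg Subtype.val hk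
    obtain ⟨m, hm1, hm2⟩ : ∃ m, t ^ 2 ^ m ≠ 1 ∧ t ^ 2 ^ (m + 1) = 1 := by
      classical
      have hex : ∃ j, t ^ 2 ^ j = 1 := ⟨k, hk'⟩
      have h1 := Nat.find_spec hex
      have h2 : Nat.find hex ≠ 0 := by
        intro h0
        rw [h0, pow_zero, pow_one] at h1
        exact ht1 h1
      obtain ⟨m, hm⟩ := Nat.exists_eq_succ_of_ne_zero h2
      refine ⟨m, Nat.find_min hex (by omega), ?_⟩
      rw [← Nat.succ_eq_add_one, ← hm]
      exact h1
    refine ⟨⟨t ^ 2 ^ m, pow_mem htS _, fun x hx => ?_, ?_⟩, fun h1 => hm1 (congrArg Subtype.val h1)⟩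
    · exact ((show Commute t x from htL x hx).pow_left _).eq
    · rw [← pow_add, ← two_mul, ← pow_succ']
      exact hm2
  -- the action of `P` on `Z`
  let act : MulAction P Z :=
    { smul := fun α a => ⟨(α : MulAut K) a, hZα α α.2 a a.2⟩
      one_smul := fun a => rfl
      mul_smul := fun α β a => rfl }
  have hsm : ∀ (α : P) (a : Z), ((α • a : Z) : K) = (α : MulAut K) a := fun _ _ => rfl
  have hZ2 : IsPGroup 2 ↥Z := S₁.isPGroup'.to_le (fun a ha => ((hZmem a).1 ha).1)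
  have hdvd : 2 ∣ Nat.card Z := by
    obtain ⟨n, hn'⟩ := IsPGroup.iff_card.1 hZ2
    rcases Nat.eq_zero_or_pos n with h0 | h0
    · exfalso
      rw [h0, pow_zero] at hn'
      obtain ⟨a, ha⟩ := hZne
      exact ha ((Nat.card_eq_one_iff_unique.1 hn').1.elim a 1)
    · rw [hn']
      exact dvd_pow_self 2 h0.ne'
  obtain ⟨a, ha, ha1⟩ := IsPGroup.exists_fixed_point_of_prime_dvd_card_of_fixed_point (G := P) (α := Z) hF.P_two hdvd
    (a := 1) (by
      intro α
      apply Subtype.ext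
      rw [hsm]
      exact map_one _)
  have ha2 := (hZmem (a : K)).1 a.2
  have hord : orderOf (a : K) = 2 := by
    apply orderOf_eq_prime
    · rw [pow_two]
      exact ha2.2.2
    · intro h1
      exact ha1 (Subtype.ext h1.symm)
  have hcen := hF.fix a ha2.1 hord (fun α hα => by
    have h1 := ha ⟨α, hα⟩
    exact congrArg Subtype.val h1)
  have hLc : L ≤ centralizer ({(a : K)} : Set K) := fun x hx =>
    mem_centralizer_singleton_iff.2 (ha2.2.1 x hx).symm
  have hL2 : IsPGroup 2 ↥L := hcen.to_le hLc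
  have hLS : L = (S₁ : Subgroup K) := S₁.is_maximal' hL2 le_Cl
  apply hn
  intro g hg
  rw [mem_normalizer_iff]
  have h1 : ∀ g ∈ P₁, ∀ x ∈ (S₁ : Subgroup K), g * x * g⁻¹ ∈ (S₁ : Subgroup K) := by
    intro g hg x hx
    rw [← hLS] at hx ⊢
    exact Cl_conj hg hx
  intro x
  constructor
  · exact h1 g hg x
  · intro hx
    have h2 := h1 g⁻¹ (inv_mem hg) _ hx
    have h3 : g⁻¹ * (g * x * g⁻¹) * g⁻¹⁻¹ = x := by group
    rwa [h3] at h2

/-- an element of `S₁` acting trivially modulo `O₂(P₁)` lies in `O₂(P₁)` -/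
theorem mem_O2_of_comm [Finite K] {S₁ : Sylow 2 K} {P₁ : Subgroup K} (hS : (S₁ : Subgroup K) ≤ P₁) {u : K}
    (hu : u ∈ (S₁ : Subgroup K)) (hO : O2 P₁ ≤ (S₁ : Subgroup K))
    (hc : ∀ k ∈ P₁, k⁻¹ * (u * k * u⁻¹) ∈ O2 P₁) : u ∈ O2 P₁ := by
  set N : Subgroup K := O2 P₁ ⊔ zpowers u with hN
  have huN : u ∈ N := (le_sup_right : zpowers u ≤ N) (mem_zpowers u)
  have hNS : N ≤ (S₁ : Subgroup K) := sup_le hO (by rwa [zpowers_le])
  have h1 : ∀ g ∈ P₁, ∀ n ∈ N, g * n * g⁻¹ ∈ N := by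
    intro g hg
    have h2 : N ≤ N.comap (MulAut.conj g).toMonoidHom := by
      refine sup_le ?_ ?_
      · intro x hx
        exact (le_sup_left : O2 P₁ ≤ N) (O2_conj_mem hg hx)
      · rw [zpowers_le]
        show g * u * g⁻¹ ∈ N
        have h3 := hc g⁻¹ (inv_mem hg)
        rw [inv_inv] at h3
        have h4 : g * u * g⁻¹ = g * (u * g⁻¹ * u⁻¹) * u := by group
        rw [h4]
        exact mul_mem ((le_sup_left : O2 P₁ ≤ N) h3) huN
    exact fun n hn => h2 hn
  exact le_O2 (hNS.trans hS) h1 (S₁.isPGroup'.to_le hNS) huN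

theorem O2_le_sylow [Finite K] {S₁ : Sylow 2 K} {P₁ : Subgroup K} (hS : (S₁ : Subgroup K) ≤ P₁) :
    O2 P₁ ≤ (S₁ : Subgroup K) := by
  have h1 := Lib.Cores.pCore_le_sylow (S₁.subtype hS)
  have h2 := map_mono (f := P₁.subtype) h1
  refine h2.trans ?_
  rw [Sylow.coe_subtype, subgroupOf_map_subtype]
  exact inf_le_left

/-- **The kill for `PSL_3(2^k)`.** -/
theorem kill_of_inf [Finite K] {S₁ : Sylow 2 K} {P V : Subgroup (MulAut K)} (hF : Fib S₁ P V) (hr : Rig K)
    {P₁ P₂ : Subgroup K} (h : RTwo (S₁ : Subgroup K) P₁ P₂) (htop : P₁ ⊔ P₂ = ⊤)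
    (hc : ∀ x ∈ O2 P₁, x ∈ O2 P₂ → ∀ s ∈ (S₁ : Subgroup K), x * s = s * x) : False := by
  have hfix := fun α hα => h.fixed hF.toLoc (α := α) hα
  obtain ⟨y, hy, s, hs, hys⟩ := hF.act P₁ P₂ h.ne h.le1 h.le2 htop h.o1 h.o2 (fun α hα => hfix α hα)
    (fun α hα => h.perm α hα)
  obtain ⟨w, hw, rfl⟩ := hr S₁ P V hF.toLoc y hy
  have key : ∀ {Q₁ Q₂ : Subgroup K}, RTwo (S₁ : Subgroup K) Q₁ Q₂ → (∀ α ∈ P, Q₁.map α.toMonoidHom = Q₁) →
      w ∈ O2 Q₁ := by
    intro Q₁ Q₂ hQ hQf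
    have hO := O2_le_sylow hQ.le1
    refine mem_O2_of_comm hQ.le1 hw hO ?_
    intro k hk
    have hn : normalizer (O2 Q₁ : Set K) = Q₁ := by
      refine le_antisymm hQ.norm_le ?_
      intro g hg
      rw [mem_normalizer_iff]
      intro x
      constructor
      · exact fun hx => O2_conj_mem hg hx
      · intro hx
        have h1 := O2_conj_mem (inv_mem hg) hx
        have h2 : g⁻¹ * (g * x * g⁻¹) * g⁻¹⁻¹ = x := by group
        rwa [h2] at h1
    have h1 := hF.V_loc (O2 Q₁) hQ.o1 hO (fun α hα r hr' => by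
      have h2 : (O2 Q₁).map α.toMonoidHom = O2 Q₁ := by
        rw [← O2_map, hQf α hα]
      rw [← h2]
      exact ⟨r, hr', rfl⟩) _ hy k (by rw [hn]; exact hk)
    rw [hn, MulAut.conj_apply] at h1
    exact h1
  have h1 := key h (fun α hα => (hfix α hα).1)
  have h2 := key h.symm (fun α hα => (hfix α hα).2)
  apply hys
  rw [MulAut.conj_apply, hc w h1 h2 s hs]
  group

end Engine

end Cfsg.Agent.H96.Tall
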