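import Cfsg.Agent.H96.Tall.Lin

/-!
# S2927: the two parabolics, dimension 3 and 4 (helper96)
-/

set_option autoImplicit false
set_option linter.unusedSectionVars false

namespace Cfsg.Agent.H96.Tall.Lin

open Subgroup Cfsg Cfsg.Agent.H226.Tall Cfsg.Agent.H96.Tall Module

variable {F V G : Type*} [Field F] [CharP F 2] [AddCommGroup V] [Module F V] [Finite V] [Group G] [Finite G]
  {ρ : G →* Module.End F V}
variable [Nontrivial V] (hρ : Function.Injective ρ) {u : G} {N : Module.End F V} (hu : ∀ v, N v = ρ u v - v)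
  (h1 : finrank F (LinearMap.ker N) ≤ 1) (S : Sylow 2 G) (huS : u ∈ (S : Subgroup G))

theorem mem_stab_zero (ρ : G →* Module.End F V) (N : Module.End F V) (g : G) : g ∈ stab ρ (fl N 0) := by
  intro v hv
  rw [fl_zero, Submodule.mem_bot] at hv ⊢
  rw [hv, map_zero]

theorem mem_stab_top (ρ : G →* Module.End F V) {N : Module.End F V} {n i : ℕ} (hn : N ^ n = 0) (hi : n ≤ i)
    (g : G) : g ∈ stab ρ (fl N i) := by
  intro v _
  refine fl_mono N hi ?_
  rw [mem_fl, hn]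
  rfl

include hρ hu h1 huS

theorem two4 (hn : N ^ 4 = 0) (hV : finrank F V = 4) (st1 : stab ρ (fl N 1) ≤ stab ρ (fl N 3))
    (st3 : stab ρ (fl N 3) ≤ stab ρ (fl N 1)) (n12 : ¬ stab ρ (fl N 1) ≤ stab ρ (fl N 2))
    (n21 : ¬ stab ρ (fl N 2) ≤ stab ρ (fl N 1)) {t : G} (ht1 : t ≠ 1) (ht : ∀ v, ρ t v - v ∈ fl N 1)
    (htW : ∀ v ∈ fl N 3, ρ t v = v) :
    RTwo (S : Subgroup G) (stab ρ (fl N 1)) (stab ρ (fl N 2)) where
  le1 := fun s hs => (flag hu h1 S.isPGroup' huS 1).1 s hs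
  le2 := fun s hs => (flag hu h1 S.isPGroup' huS 2).1 s hs
  inf := by
    rintro g ⟨hg1, hg2⟩
    refine mem_normalizer hρ hu h1 hn S huS (fun i => ?_)
    rcases lt_or_ge i 4 with hi | hi
    · interval_cases i
      · exact mem_stab_zero ρ N g
      · exact hg1
      · exact hg2
      · exact st1 hg1
    · exact mem_stab_top ρ hn hi g
  ovr := by
    intro M hM hO
    obtain ⟨i, hi0, hi4, hi⟩ := bt hρ hu h1 hn S huS hM hO
    rw [hV] at hi4
    interval_cases i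
    · exact Or.inl hi
    · exact Or.inr hi
    · exact Or.inl (hi.trans st3)
  o1 := O2_stab_ne hρ ht1 ht (fun v hv => htW v (fl_mono N (by omega) hv))
  o2 := O2_stab_ne hρ ht1 (fun v => fl_mono N (by omega) (ht v)) (fun v hv => htW v (fl_mono N (by omega) hv))
  n12 := n12
  n21 := n21

theorem mem_four (hn : N ^ 4 = 0) {t : G} (ht : ∀ v, ρ t v - v ∈ fl N 1) (htW : ∀ v ∈ fl N 3, ρ t v = v) :
    t ∈ (S : Subgroup G) := by
  rw [← urad_eq hρ hu h1 hn S huS]
  intro i v hv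
  rcases Nat.eq_zero_or_pos i with rfl | hi
  · rw [htW v (fl_mono N (by omega) hv), sub_self]
    exact Submodule.zero_mem _
  · exact fl_mono N hi (ht v)

theorem comm_of_fix {t : G} (ht : ∀ x : G, (∀ v ∈ fl N 1, ρ x v = v) → Commute t x) :
    ∀ g ∈ stab ρ (fl N 1), ∀ s ∈ (S : Subgroup G), Commute t (g * s * g⁻¹) := by
  intro g hg s hs
  refine ht _ (fun v hv => ?_)
  have h2 := (stab ρ (fl N 1)).inv_mem hg _ hv
  have h3 := (flag hu h1 S.isPGroup' huS 0).2 s hs _ h2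
  rw [fl_zero, Submodule.mem_bot, sub_eq_zero] at h3
  rw [rho_mul, rho_mul, h3, rho_apply_inv]

theorem two3 (hn : N ^ 3 = 0) (hV : finrank F V = 3) (n12 : ¬ stab ρ (fl N 1) ≤ stab ρ (fl N 2))
    (n21 : ¬ stab ρ (fl N 2) ≤ stab ρ (fl N 1)) {t : G} (ht1 : t ≠ 1) (ht : ∀ v, ρ t v - v ∈ fl N 1)
    (htW : ∀ v ∈ fl N 2, ρ t v = v) :
    RTwo (S : Subgroup G) (stab ρ (fl N 1)) (stab ρ (fl N 2)) where
  le1 := fun s hs => (flag hu h1 S.isPGroup' huS 1).1 s hs
  le2 := fun s hs => (flag hu h1 S.isPGroup' huS 2).1 s hs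
  inf := by
    rintro g ⟨hg1, hg2⟩
    refine mem_normalizer hρ hu h1 hn S huS (fun i => ?_)
    rcases lt_or_ge i 3 with hi | hi
    · interval_cases i
      · exact mem_stab_zero ρ N g
      · exact hg1
      · exact hg2
    · exact mem_stab_top ρ hn hi g
  ovr := by
    intro M hM hO
    obtain ⟨i, hi0, hi4, hi⟩ := bt hρ hu h1 hn S huS hM hO
    rw [hV] at hi4
    interval_cases i
    · exact Or.inl hi
    · exact Or.inr hi
  o1 := O2_stab_ne hρ ht1 ht (fun v hv => htW v (fl_mono N (by omega) hv))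
  o2 := O2_stab_ne hρ ht1 (fun v => fl_mono N (by omega) (ht v)) htW
  n12 := n12
  n21 := n21

end Cfsg.Agent.H96.Tall.Lin
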