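import Cfsg.Agent.H96.Tall.Rank
import Cfsg.Agent.ClassicalGeometry.SympBasic
import Cfsg.Agent.LieClassical.SympCenter

/-!
# S2927, LSP4 : `PSp_4(2^k)` is not a component (helper96)
-/

set_option autoImplicit false
set_option linter.unusedSectionVars false

namespace Cfsg.Agent.H96.Tall

open Subgroup Cfsg Cfsg.Agent.H226.Tall Module

universe u

open scoped Pointwise in
/-- replace an isomorphism such that a given 2-element lies in the image of `S₁` -/
theorem exists_equiv {K G : Type*} [Group K] [Group G] [Finite G] (e : K ≃* G) (S₁ : Sylow 2 K) {w : G}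
    (hw : IsPGroup 2 ↥(zpowers w)) :
    ∃ (e' : K ≃* G) (S₀ : Sylow 2 G), w ∈ (S₀ : Subgroup G) ∧ (S₁ : Subgroup K).map e'.toMonoidHom = S₀ := by
  have : Finite K := Finite.of_equiv _ e.symm.toEquiv
  obtain ⟨S₀, hS₀⟩ := hw.exists_le_sylow
  let S' : Sylow 2 G := S₁.mapSurjective (f := e.toMonoidHom) e.surjective
  obtain ⟨g, hg⟩ := MulAction.exists_smul_eq G S' S₀
  refine ⟨e.trans (MulAut.conj g), S₀, hS₀ (mem_zpowers w), ?_⟩
  rw [← hg]
  ext x
  constructor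
  · rintro ⟨s, hs, rfl⟩
    show g * e s * g⁻¹ ∈ MulAut.conj g • (S' : Subgroup G)
    exact Subgroup.smul_mem_pointwise_smul (e s) (MulAut.conj g) _ ⟨s, hs, rfl⟩
  · intro hx
    have hx' : x ∈ MulAut.conj g • (S' : Subgroup G) := hx
    rw [Subgroup.mem_pointwise_smul_iff_inv_smul_mem] at hx'
    obtain ⟨s, hs, h1⟩ := hx'
    refine ⟨s, hs, ?_⟩
    have h2 : e s = g⁻¹ * x * g := by
      have h3 : e s = (MulAut.conj g)⁻¹ • x := h1
      rw [h3, ← map_inv]
      show g⁻¹ * x * g⁻¹⁻¹ = _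
      rw [inv_inv]
    show g * e s * g⁻¹ = x
    rw [h2]
    group

end Cfsg.Agent.H96.Tall

namespace Cfsg.Agent.H96.Tall.Sp4

open Subgroup Cfsg Cfsg.Agent.H226.Tall Module Cfsg.Agent.H96.Tall.Lin Sum
open Cfsg.Agent.ClassicalGeometry.SympBasic

universe u

variable {F : Type*} [Field F]

/-- the natural representation -/
def rho (F : Type*) [Field F] : Matrix.symplecticGroup (Fin 2) F →* Module.End F (Fin 2 ⊕ Fin 2 → F) where
  toFun A := Matrix.mulVecLin (A : Matrix (Fin 2 ⊕ Fin 2) (Fin 2 ⊕ Fin 2) F)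
  map_one' := Matrix.mulVecLin_one
  map_mul' A B := Matrix.mulVecLin_mul _ _

theorem rho_apply (A : Matrix.symplecticGroup (Fin 2) F) (v : Fin 2 ⊕ Fin 2 → F) :
    rho F A v = Matrix.mulVec (A : Matrix (Fin 2 ⊕ Fin 2) (Fin 2 ⊕ Fin 2) F) v := rfl

theorem rho_injective : Function.Injective (rho F) := by
  intro A B h
  apply Subtype.ext
  rw [← Matrix.mulVec_injective.eq_iff]
  funext v
  exact congrArg (fun f : Module.End F (Fin 2 ⊕ Fin 2 → F) => f v) h

theorem form_rho (A : Matrix.symplecticGroup (Fin 2) F) (x y : Fin 2 ⊕ Fin 2 → F) :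
    sympForm 2 F (rho F A x) (rho F A y) = sympForm 2 F x y := sympForm_mulVec A.2 x y

/-- a symplectic matrix from a linear map -/
def mk (f : (Fin 2 ⊕ Fin 2 → F) →ₗ[F] (Fin 2 ⊕ Fin 2 → F)) (hf : ∀ x y, sympForm 2 F (f x) (f y) = sympForm 2 F x y) :
    Matrix.symplecticGroup (Fin 2) F :=
  ⟨LinearMap.toMatrix' f, by
    rw [mem_symplecticGroup_iff]
    intro x y
    rw [LinearMap.toMatrix'_mulVec, LinearMap.toMatrix'_mulVec]
    exact hf x y⟩

theorem rho_mk {f : (Fin 2 ⊕ Fin 2 → F) →ₗ[F] (Fin 2 ⊕ Fin 2 → F)}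
    (hf : ∀ x y, sympForm 2 F (f x) (f y) = sympForm 2 F x y) (v : Fin 2 ⊕ Fin 2 → F) : rho F (mk f hf) v = f v := by
  rw [rho_apply]
  exact LinearMap.toMatrix'_mulVec f v

/-- a linear map given by coordinates -/
def lin (a b c d : (Fin 2 ⊕ Fin 2 → F) →ₗ[F] F) : (Fin 2 ⊕ Fin 2 → F) →ₗ[F] (Fin 2 ⊕ Fin 2 → F) :=
  LinearMap.pi (Sum.elim ![a, b] ![c, d])

section lin
variable (a b c d : (Fin 2 ⊕ Fin 2 → F) →ₗ[F] F) (v : Fin 2 ⊕ Fin 2 → F)
theorem lin0 : lin a b c d v (inl 0) = a v := rfl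
theorem lin1 : lin a b c d v (inl 1) = b v := rfl
theorem lin2 : lin a b c d v (inr 0) = c v := rfl
theorem lin3 : lin a b c d v (inr 1) = d v := rfl
end lin

/-- the coordinates -/
def X (i : Fin 2 ⊕ Fin 2) : (Fin 2 ⊕ Fin 2 → F) →ₗ[F] F := LinearMap.proj i

theorem X_apply (i : Fin 2 ⊕ Fin 2) (v : Fin 2 ⊕ Fin 2 → F) : (X i : _ →ₗ[F] F) v = v i := rfl

theorem form_two (x y : Fin 2 ⊕ Fin 2 → F) : sympForm 2 F x y =
    (x (inr 0) * y (inl 0) - x (inl 0) * y (inr 0)) + (x (inr 1) * y (inl 1) - x (inl 1) * y (inr 1)) := by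
  rw [sympForm_eq_sum, Fin.sum_univ_two]

/-- the regular unipotent element -/
def ulin (F : Type*) [Field F] : (Fin 2 ⊕ Fin 2 → F) →ₗ[F] (Fin 2 ⊕ Fin 2 → F) :=
  lin (X (inl 0) + X (inl 1) + X (inr 1)) (X (inl 1) + X (inr 1)) (X (inr 0)) (X (inr 1) - X (inr 0))

theorem ulin_form (x y : Fin 2 ⊕ Fin 2 → F) : sympForm 2 F (ulin F x) (ulin F y) = sympForm 2 F x y := by
  unfold ulin
  rw [form_two, form_two]
  simp only [lin0, lin1, lin2, lin3, LinearMap.add_apply, LinearMap.sub_apply, X_apply]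
  ring

def uel (F : Type*) [Field F] : Matrix.symplecticGroup (Fin 2) F := mk (ulin F) ulin_form

/-- `N = u - 1` -/
def N (F : Type*) [Field F] : Module.End F (Fin 2 ⊕ Fin 2 → F) :=
  lin (X (inl 1) + X (inr 1)) (X (inr 1)) 0 (- X (inr 0))

theorem hu (v : Fin 2 ⊕ Fin 2 → F) : N F v = rho F (uel F) v - v := by
  unfold uel
  rw [rho_mk]
  unfold N ulin
  ext i
  rcases i with i | i <;> fin_cases i
  · show lin _ _ _ _ v (inl 0) = lin _ _ _ _ v (inl 0) - v (inl 0)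
    simp only [lin0, LinearMap.add_apply, X_apply]; ring
  · show lin _ _ _ _ v (inl 1) = lin _ _ _ _ v (inl 1) - v (inl 1)
    simp only [lin1, LinearMap.add_apply, X_apply]; ring
  · show lin _ _ _ _ v (inr 0) = lin _ _ _ _ v (inr 0) - v (inr 0)
    simp only [lin2, LinearMap.zero_apply, X_apply]; ring
  · show lin _ _ _ _ v (inr 1) = lin _ _ _ _ v (inr 1) - v (inr 1)
    simp only [lin3, LinearMap.neg_apply, LinearMap.sub_apply, X_apply]; ring

theorem N0 (v : Fin 2 ⊕ Fin 2 → F) : N F v (inl 0) = v (inl 1) + v (inr 1) := rfl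
theorem N1 (v : Fin 2 ⊕ Fin 2 → F) : N F v (inl 1) = v (inr 1) := rfl
theorem N2 (v : Fin 2 ⊕ Fin 2 → F) : N F v (inr 0) = 0 := rfl
theorem N3 (v : Fin 2 ⊕ Fin 2 → F) : N F v (inr 1) = - v (inr 0) := rfl

theorem eq_zero_iff (v : Fin 2 ⊕ Fin 2 → F) :
    v = 0 ↔ v (inl 0) = 0 ∧ v (inl 1) = 0 ∧ v (inr 0) = 0 ∧ v (inr 1) = 0 := by
  constructor
  · rintro rfl
    exact ⟨rfl, rfl, rfl, rfl⟩
  · rintro ⟨h0, h1, h2, h3⟩
    ext i
    rcases i with i | i <;> fin_cases i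
    · exact h0
    · exact h1
    · exact h2
    · exact h3

theorem mem_fl1 (v : Fin 2 ⊕ Fin 2 → F) : v ∈ fl (N F) 1 ↔ v (inl 1) = 0 ∧ v (inr 0) = 0 ∧ v (inr 1) = 0 := by
  rw [mem_fl, pow_one, eq_zero_iff, N0, N1, N2, N3, neg_eq_zero]
  constructor
  · rintro ⟨h1, h2, -, h3⟩
    rw [h2, add_zero] at h1
    exact ⟨h1, h3, h2⟩
  · rintro ⟨h1, h2, h3⟩
    refine ⟨?_, h3, rfl, h2⟩
    rw [h1, h3, add_zero]

theorem mem_fl2 (v : Fin 2 ⊕ Fin 2 → F) : v ∈ fl (N F) 2 ↔ v (inr 0) = 0 ∧ v (inr 1) = 0 := by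
  rw [mem_fl_succ, mem_fl1, N1, N2, N3, neg_eq_zero]
  tauto

theorem mem_fl3 (v : Fin 2 ⊕ Fin 2 → F) : v ∈ fl (N F) 3 ↔ v (inr 0) = 0 := by
  rw [mem_fl_succ, mem_fl2, N2, N3, neg_eq_zero]
  tauto

theorem mem_fl4 (v : Fin 2 ⊕ Fin 2 → F) : v ∈ fl (N F) 4 := by
  rw [mem_fl_succ, mem_fl3, N2]

theorem hn : N F ^ 4 = 0 := by
  apply LinearMap.ext
  intro v
  exact mem_fl.1 (mem_fl4 v)

theorem fl_top {i : ℕ} (hi : 4 ≤ i) : fl (N F) i = ⊤ := by
  rw [eq_top_iff]
  exact fun v _ => fl_mono _ hi (mem_fl4 v)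

theorem h1 : finrank F (LinearMap.ker (N F)) ≤ 1 := by
  have hle : LinearMap.ker (N F) ≤ Submodule.span F {(Pi.single (inl 0) 1 : Fin 2 ⊕ Fin 2 → F)} := by
    intro v hv
    have h2 : v ∈ fl (N F) 1 := by
      rw [mem_fl, pow_one]
      exact LinearMap.mem_ker.1 hv
    rw [mem_fl1] at h2
    rw [Submodule.mem_span_singleton]
    refine ⟨v (inl 0), ?_⟩
    ext i
    rcases i with i | i <;> fin_cases i
    · simp
    · simp [h2.1]
    · simp [h2.2.1]
    · simp [h2.2.2]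
  exact (Submodule.finrank_mono hle).trans ((finrank_span_le_card _).trans (by simp))

/-- the vector `e₀` -/
def e0 (F : Type*) [Field F] : Fin 2 ⊕ Fin 2 → F := Pi.single (inl 0) 1

theorem e0_mem : e0 F ∈ fl (N F) 1 := by
  rw [mem_fl1]
  exact ⟨rfl, rfl, rfl⟩

theorem form_e0 (v : Fin 2 ⊕ Fin 2 → F) : sympForm 2 F v (e0 F) = v (inr 0) := sympForm_single_inl_right 0 v

variable [CharP F 2]

/-- `P₁` stabilises `V₁ ^ ⊥` -/
theorem stab1_le [Finite F] : stab (rho F) (fl (N F) 1) ≤ stab (rho F) (fl (N F) 3) := by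
  intro g hg v hv
  rw [mem_fl3] at hv ⊢
  -- `g e₀ = c e₀`
  have h2 := hg _ e0_mem
  rw [mem_fl1] at h2
  have h3 := form_rho g v (e0 F)
  rw [form_e0, hv, form_two, h2.1, h2.2.1, h2.2.2] at h3
  have h4 : rho F g v (inr 0) * rho F g (e0 F) (inl 0) = 0 := by linear_combination h3
  rcases mul_eq_zero.1 h4 with h5 | h5
  · exact h5
  · exfalso
    have h6 : rho F g (e0 F) = 0 := by
      rw [eq_zero_iff]
      exact ⟨h5, h2.1, h2.2.1, h2.2.2⟩
    have h7 := rho_inv_apply (rho F) g (e0 F)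
    rw [h6, map_zero] at h7
    have h8 := congrFun h7 (inl 0)
    exact one_ne_zero h8.symm

theorem stab3_le [Finite F] : stab (rho F) (fl (N F) 3) ≤ stab (rho F) (fl (N F) 1) := by
  intro g hg
  have hg' := (stab (rho F) (fl (N F) 3)).inv_mem hg
  -- `g e₀` is orthogonal to `V₃`
  have key : ∀ w : Fin 2 ⊕ Fin 2 → F, w (inr 0) = 0 → sympForm 2 F w (rho F g (e0 F)) = 0 := by
    intro w hw
    have h2 := hg' w (by rw [mem_fl3]; exact hw)
    rw [mem_fl3] at h2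
    have h3 := form_rho g (rho F g⁻¹ w) (e0 F)
    rwa [rho_apply_inv, form_e0, h2] at h3
  have ha := key (Pi.single (inl 0) 1) (by simp)
  have hb := key (Pi.single (inl 1) 1) (by simp)
  have hc := key (Pi.single (inr 1) 1) (by simp)
  rw [sympForm_single_inl_left, neg_eq_zero] at ha hb
  rw [sympForm_single_inr_left] at hc
  intro v hv
  have h2 : v = v (inl 0) • e0 F := by
    rw [mem_fl1] at hv
    ext i
    rcases i with i | i <;> fin_cases i
    · simp [e0]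
    · simp [e0, hv.1]
    · simp [e0, hv.2.1]
    · simp [e0, hv.2.2]
  rw [h2, map_smul]
  refine (fl (N F) 1).smul_mem _ ?_
  rw [mem_fl1]
  exact ⟨hc, ha, hb⟩

theorem n12 [Finite F] : ¬ stab (rho F) (fl (N F) 1) ≤ stab (rho F) (fl (N F) 2) := by
  intro h
  have hr : ∀ v : Fin 2 ⊕ Fin 2 → F, rho F (transv (m := 2) (Pi.single (inr 1) 1) 1) v =
      v + (1 * sympForm 2 F v (Pi.single (inr 1) 1)) • (Pi.single (inr 1) 1 : Fin 2 ⊕ Fin 2 → F) := fun v =>
    sympTransvection_mulVec _ v 1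
  have h2 : transv (m := 2) (Pi.single (inr 1) 1 : Fin 2 ⊕ Fin 2 → F) 1 ∈ stab (rho F) (fl (N F) 1) := by
    intro v hv
    rw [hr, sympForm_single_inr_right, (mem_fl1 v).1 hv |>.1, neg_zero, mul_zero, zero_smul, add_zero]
    exact hv
  have h3 := h h2 (Pi.single (inl 1) 1) (by rw [mem_fl2]; simp)
  rw [hr, mem_fl2] at h3
  have h4 := h3.2
  rw [sympForm_single_inr_right] at h4
  simp at h4

/-- an element of the Levi complement of `P₂` -/
def llin (F : Type*) [Field F] : (Fin 2 ⊕ Fin 2 → F) →ₗ[F] (Fin 2 ⊕ Fin 2 → F) :=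
  lin (X (inl 0)) (X (inl 1) + X (inl 0)) (X (inr 0) - X (inr 1)) (X (inr 1))

theorem llin_form (x y : Fin 2 ⊕ Fin 2 → F) : sympForm 2 F (llin F x) (llin F y) = sympForm 2 F x y := by
  unfold llin
  rw [form_two, form_two]
  simp only [lin0, lin1, lin2, lin3, LinearMap.add_apply, LinearMap.sub_apply, X_apply]
  ring

theorem n21 [Finite F] : ¬ stab (rho F) (fl (N F) 2) ≤ stab (rho F) (fl (N F) 1) := by
  intro h
  have h2 : mk (llin F) llin_form ∈ stab (rho F) (fl (N F) 2) := by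
    intro v hv
    rw [rho_mk, mem_fl2]
    rw [mem_fl2] at hv
    refine ⟨?_, hv.2⟩
    show v (inr 0) - v (inr 1) = 0
    rw [hv.1, hv.2, sub_zero]
  have h3 := h h2 _ e0_mem
  rw [rho_mk, mem_fl1] at h3
  have h4 : e0 F (inl 1) + e0 F (inl 0) = 0 := h3.1
  simp [e0] at h4

theorem fr : finrank F (Fin 2 ⊕ Fin 2 → F) = 4 := by
  rw [Module.finrank_pi, Fintype.card_sum, Fintype.card_fin]

/-- the transvection with centre `V₁` -/
def t (F : Type*) [Field F] : Matrix.symplecticGroup (Fin 2) F := transv (e0 F) 1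

theorem rho_t (v : Fin 2 ⊕ Fin 2 → F) : rho F (t F) v = v + v (inr 0) • e0 F := by
  have h2 : rho F (t F) v = v + (1 * sympForm 2 F v (e0 F)) • e0 F := sympTransvection_mulVec _ v 1
  rw [h2, form_e0, one_mul]

theorem t_ne : t F ≠ 1 := by
  intro h
  have h2 := rho_t (F := F) (Pi.single (inr 0) 1)
  rw [h, map_one, Module.End.one_apply] at h2
  have h3 := congrFun h2 (inl 0)
  simp [e0] at h3

theorem ht (v : Fin 2 ⊕ Fin 2 → F) : rho F (t F) v - v ∈ fl (N F) 1 := by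
  rw [rho_t, add_sub_cancel_left]
  exact (fl (N F) 1).smul_mem _ e0_mem

theorem htW (v : Fin 2 ⊕ Fin 2 → F) (hv : v ∈ fl (N F) 3) : rho F (t F) v = v := by
  rw [rho_t, (mem_fl3 v).1 hv, zero_smul, add_zero]

/-- an element fixing `e₀` commutes with `t` -/
theorem commute_t (x : Matrix.symplecticGroup (Fin 2) F) (hx : ∀ v ∈ fl (N F) 1, rho F x v = v) :
    Commute (t F) x := by
  have h2 := mul_sympTransvection x.2 (e0 F) 1
  have h3 : Matrix.mulVec (x : Matrix (Fin 2 ⊕ Fin 2) (Fin 2 ⊕ Fin 2) F) (e0 F) = e0 F := hx _ e0_mem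
  rw [h3] at h2
  exact (Subtype.ext h2 : x * t F = t F * x).symm

variable [Finite F]

attribute [local irreducible] rho uel N t mk

theorem two (S : Sylow 2 (Matrix.symplecticGroup (Fin 2) F))
    (hS : uel F ∈ (S : Subgroup (Matrix.symplecticGroup (Fin 2) F))) :
    RTwo (S : Subgroup (Matrix.symplecticGroup (Fin 2) F)) (stab (rho F) (fl (N F) 1))
      (stab (rho F) (fl (N F) 2)) :=
  two4 (ρ := rho F) (u := uel F) (N := N F) rho_injective hu h1 S hS hn fr stab1_le stab3_le n12 n21 t_ne ht htW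

theorem t_mem (S : Sylow 2 (Matrix.symplecticGroup (Fin 2) F))
    (hS : uel F ∈ (S : Subgroup (Matrix.symplecticGroup (Fin 2) F))) :
    t F ∈ (S : Subgroup (Matrix.symplecticGroup (Fin 2) F)) :=
  mem_four (ρ := rho F) (u := uel F) (N := N F) rho_injective hu h1 S hS hn ht htW

theorem comm (S : Sylow 2 (Matrix.symplecticGroup (Fin 2) F))
    (hS : uel F ∈ (S : Subgroup (Matrix.symplecticGroup (Fin 2) F))) :
    ∀ g ∈ stab (rho F) (fl (N F) 1), ∀ s ∈ (S : Subgroup (Matrix.symplecticGroup (Fin 2) F)),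
      Commute (t F) (g * s * g⁻¹) :=
  comm_of_fix (ρ := rho F) (u := uel F) (N := N F) rho_injective hu h1 S hS commute_t

theorem not_norm (S : Sylow 2 (Matrix.symplecticGroup (Fin 2) F))
    (hS : uel F ∈ (S : Subgroup (Matrix.symplecticGroup (Fin 2) F))) :
    ¬ stab (rho F) (fl (N F) 1) ≤ normalizer ((S : Subgroup (Matrix.symplecticGroup (Fin 2) F)) :
      Set (Matrix.symplecticGroup (Fin 2) F)) := fun h =>
  n12 (h.trans (norm_le (ρ := rho F) (u := uel F) (N := N F) rho_injective hu h1 hn S hS 2))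

theorem uel_mem : uel F ∈ urad (rho F) (N F) := by
  intro i v hv
  rw [← hu]
  exact mem_fl_succ.1 hv

theorem isPGroup_uel : IsPGroup 2 ↥(zpowers (uel F)) :=
  (isPGroup_urad (ρ := rho F) (N := N F) rho_injective hn).to_le ((zpowers_le (H := urad (rho F) (N F))).2 uel_mem)

/-- `PSp = Sp` -/
theorem exists_pspEquiv : Nonempty (PSp 2 F ≃* Matrix.symplecticGroup (Fin 2) F) := by
  have hc : Subgroup.center (Matrix.symplecticGroup (Fin 2) F) = ⊥ := by
    rw [Subgroup.eq_bot_iff_forall]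
    intro A hA
    obtain ⟨a, ha⟩ := (Cfsg.Agent.LieClassical.SympCenter.mem_center_iff 2 A).1 hA
    have h2 : a * a = 1 := Cfsg.Agent.LieClassical.SympCenter.sq_eq_one_of_smul_mem (by norm_num) (ha ▸ A.2)
    have h3 : a = 1 := by
      have h4 : (a + 1) * (a + 1) = 0 := by
        have h5 : (2 : F) = 0 := CharTwo.two_eq_zero
        linear_combination h2 + (a + 1) * h5
      have h5 := mul_self_eq_zero.1 h4
      exact CharTwo.add_eq_zero.1 h5
    apply Subtype.ext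
    rw [ha, h3, one_smul]
    rfl
  exact ⟨(QuotientGroup.quotientMulEquivOfEq hc).trans QuotientGroup.quotientBot⟩

/-- **LSP4** -/
theorem false_of_fib {K : Type u} [Group K] (e : K ≃* PSp 2 F) {S₁ : Sylow 2 K}
    {P V : Subgroup (MulAut K)} (hF : Fib S₁ P V) : False := by
  obtain ⟨e₂⟩ := exists_pspEquiv (F := F)
  obtain ⟨e', S₀, hw, hS⟩ := exists_equiv (e.trans e₂) S₁ (isPGroup_uel (F := F))
  have : Finite K := Finite.of_equiv _ e'.symm.toEquiv
  have hS' : (S₀ : Subgroup _).map e'.symm.toMonoidHom = (S₁ : Subgroup K) := by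
    rw [← hS]
    exact map_symm_map e' _
  have hR := (two S₀ hw).map e'.symm
  rw [hS'] at hR
  refine kill_of_cent hF hR (t := e'.symm (t F)) ?_ ?_ ?_ ?_
  · intro h
    apply t_ne (F := F)
    rw [← e'.apply_symm_apply (t F), h, map_one]
  · rw [← hS']
    exact ⟨_, t_mem S₀ hw, rfl⟩
  · rintro _ ⟨g, hg, rfl⟩ s hs
    rw [← hS'] at hs
    obtain ⟨s, hs, rfl⟩ := hs
    have h2 := (comm S₀ hw g hg s hs).map e'.symm
    rwa [map_mul, map_mul, map_inv] at h2
  · intro h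
    apply not_norm S₀ hw
    have h2 := map_mono (f := e'.toMonoidHom) h
    rw [map_map_symm] at h2
    refine h2.trans ((normalizer_map e' _).trans ?_)
    rw [hS]

/-- **LSP4**: `PSp_4(2^k)` is not a component. -/
theorem no2_psp4 : No2.{u} (fun K _ => ∃ (F : Type) (_ : Field F) (_ : Fintype F) (k : ℕ),
    2 ≤ k ∧ Fintype.card F = 2 ^ k ∧ Nonempty (K ≃* PSp 2 F)) := by
  rintro K _ _ _ S₁ P V hF ⟨F, _, _, k, hk, hF', ⟨e⟩⟩
  have : CharP F 2 := by
    obtain ⟨p, hp⟩ := CharP.exists F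
    have hpp : p.Prime := (CharP.char_is_prime_or_zero F p).resolve_right (CharP.char_ne_zero_of_finite F p)
    have : Fact p.Prime := ⟨hpp⟩
    obtain ⟨n, -, hn'⟩ := FiniteField.card F p
    rw [hF'] at hn'
    have h2 : p ∣ 2 ^ k := by rw [hn']; exact dvd_pow_self p n.ne_zero
    have h3 := (Nat.prime_dvd_prime_iff_eq hpp Nat.prime_two).1 (hpp.dvd_of_dvd_pow h2)
    rwa [← h3]
  exact false_of_fib e hF

end Cfsg.Agent.H96.Tall.Sp4
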